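import Cfsg.Agent.Lib.ToddCox.Glue
set_option autoImplicit false
set_option maxRecDepth 100000
namespace Cfsg.Agent.Lib.ToddCox.A5C1
def E_0 : ℕ := 0x30400000800000810000030000030000000800000830000030000000c00000000000000000000000010000000c00000c30000010000010c0000080000080000001000000040000040000041000000
end Cfsg.Agent.Lib.ToddCox.A5C1
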